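import Cfsg.Agent.H159.PF.FieldUniq
import Cfsg.Agent.H997.PF.Rows
import Cfsg.Agent.H901.SaxSpFour
import Cfsg.Agent.H124.LinCyc

/-!
# The class of `Sp_2(q²).2` in `PSp_4(q)` (helper159, for S3522)

`Quad r` : the proper subgroups `M` of `PSp_4(q)`, of order divisible by `r`, whose preimage is the normaliser of a
quadratic field subalgebra.  If `r` is a primitive prime divisor of `q ^ 4 - 1` they form one conjugacy class and an
element of order `r` lies in at most one of them.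
-/

set_option autoImplicit false

namespace Cfsg.Agent.H159.PF

open Module Cfsg Cfsg.Geo Cfsg.Agent.H884.El Matrix
open Cfsg.Agent.H262.El (pre pre_le pre_ne scalars_le_pre mem_pre spToGL_injective)
open Cfsg.Agent.ClassicalGeometry.SympBasic Cfsg.Agent.H876 Cfsg.Agent.H931
open Cfsg.Agent.H938.Sax (PGap)
open Cfsg.Agent.H374.SpFour
open Cfsg.Agent.H997.PF
open scoped MatrixGroups Matrix

universe u

section pre

variable {F : Type u} [Field F] {m : ℕ}

theorem pre_injective {R S : Subgroup (PSp m F)} (h : pre R = pre S) : R = S := by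
  ext x
  obtain ⟨A, rfl⟩ := QuotientGroup.mk_surjective x
  rw [← mem_pre, ← mem_pre, h]

theorem mem_pre_conj {R : Subgroup (PSp m F)} {A B : Matrix.symplecticGroup (Fin m) F} :
    spToGL m F A ∈ pre (R.map (MulAut.conj (QuotientGroup.mk B : PSp m F)).toMonoidHom) ↔
      (spToGL m F B)⁻¹ * spToGL m F A * spToGL m F B ∈ pre R := by
  rw [mem_pre, ← map_inv, ← map_mul, ← map_mul, mem_pre]
  constructor
  · rintro ⟨y, hy, hyA⟩
    have h1 : (QuotientGroup.mk B : PSp m F) * y * (QuotientGroup.mk B : PSp m F)⁻¹ = QuotientGroup.mk A := hyA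
    have h2 : (QuotientGroup.mk (B⁻¹ * A * B) : PSp m F) = y := by
      rw [QuotientGroup.mk_mul, QuotientGroup.mk_mul, QuotientGroup.mk_inv, ← h1]
      group
    rw [h2]
    exact hy
  · intro h
    refine ⟨_, h, ?_⟩
    show (QuotientGroup.mk B : PSp m F) * QuotientGroup.mk (B⁻¹ * A * B) * (QuotientGroup.mk B : PSp m F)⁻¹ = _
    rw [QuotientGroup.mk_mul, QuotientGroup.mk_mul, QuotientGroup.mk_inv]
    group

end pre

variable {F : Type u} [Field F] [Fintype F]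

/-- the class of `Sp_2(q²).2` -/
def Quad (F : Type u) [Field F] [Fintype F] (r : ℕ) : Set (Subgroup (PSp 2 F)) :=
  {M | M ≠ ⊤ ∧ r ∣ Nat.card M ∧ ∃ K : Subalgebra F (Matrix (Fin 2 ⊕ Fin 2) (Fin 2 ⊕ Fin 2) F),
    IsFieldSubalgebra 2 K ∧ pre M = subalgebraNormalizer K ⊓ spGL 2 F}

theorem quad_conj {r : ℕ} {M : Subgroup (PSp 2 F)} (hM : M ∈ Quad F r) (t : PSp 2 F) :
    M.map (MulAut.conj t).toMonoidHom ∈ Quad F r := by
  obtain ⟨h1, h2, K, hK, hKM⟩ := hM
  obtain ⟨B, rfl⟩ := QuotientGroup.mk_surjective t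
  refine ⟨?_, ?_, K.map (H912.conjAlg (spToGL 2 F B) : Matrix _ _ F →ₐ[F] Matrix _ _ F), conj_fieldSub hK _, ?_⟩
  · intro h
    apply h1
    apply Subgroup.eq_top_of_card_eq
    have h3 := card_map (MulAut.conj (QuotientGroup.mk B : PSp 2 F)) M
    rw [← h3, h, Subgroup.card_top]
  · rwa [card_map]
  · ext x
    constructor
    · intro hx
      obtain ⟨A, rfl⟩ := exists_spToGL (pre_le _ hx)
      rw [mem_pre_conj, hKM] at hx
      refine ⟨mem_normalizer_conj.2 hx.1, spToGL_mem A⟩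
    · rintro ⟨hx, hxs⟩
      obtain ⟨A, rfl⟩ := exists_spToGL hxs
      rw [mem_pre_conj, hKM]
      refine ⟨mem_normalizer_conj.1 hx, ?_⟩
      rw [← map_inv, ← map_mul, ← map_mul]
      exact spToGL_mem _

/-- an element of order `r` lies in at most one member -/
theorem quad_uni {r : ℕ} (hr : PP (Nat.card F) 4 r) {x : PSp 2 F} (hx : orderOf x = r) {M M' : Subgroup (PSp 2 F)}
    (hM : M ∈ Quad F r) (hM' : M' ∈ Quad F r) (h : x ∈ M) (h' : x ∈ M') : M = M' := by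
  obtain ⟨-, -, K, hK, hKM⟩ := hM
  obtain ⟨-, -, K', hK', hKM'⟩ := hM'
  obtain ⟨A, rfl⟩ := QuotientGroup.mk_surjective x
  have hr5 := hr.lt (by norm_num)
  rw [← mem_pre, hKM] at h
  rw [← mem_pre, hKM'] at h'
  set g := spToGL 2 F A with hg
  have hc1 := H901.SaxSp.sq_comm hK h.1
  have hc2 := H901.SaxSp.sq_comm hK' h'.1
  -- `g ^ 2` has order `r`
  have hpow : ((QuotientGroup.mk A : PSp 2 F)) ^ r = 1 := by rw [← hx]; exact pow_orderOf_eq_one _
  have hA : (A : Matrix (Fin 2 ⊕ Fin 2) (Fin 2 ⊕ Fin 2) F) ∈ Matrix.symplecticGroup (Fin 2) F := A.2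
  have hcl : (QuotientGroup.mk A : PSp 2 F) = cl (A : Matrix (Fin 2 ⊕ Fin 2) (Fin 2 ⊕ Fin 2) F) hA := rfl
  rw [hcl] at hpow
  obtain ⟨c, hc⟩ := cl_pow_eq_one.1 hpow
  have hc' := sq_of_scalar hA hc
  have hg2 : (g ^ 2) ^ r = 1 := by
    apply Units.ext
    rw [← pow_mul, Nat.mul_comm, pow_mul, Units.val_pow_eq_pow_val, Units.val_pow_eq_pow_val, Units.val_one]
    have h3 : (g : Matrix (Fin 2 ⊕ Fin 2) (Fin 2 ⊕ Fin 2) F) ^ r = c • 1 := hc
    rw [h3, smul_pow, hc', one_pow, one_smul]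
  have hg1 : g ^ 2 ≠ 1 := by
    intro h1
    have h2 : A ^ 2 = 1 := by
      apply spToGL_injective
      rw [map_pow, map_one]
      exact h1
    have h3 : (QuotientGroup.mk A : PSp 2 F) ^ 2 = 1 := by
      rw [← QuotientGroup.mk_pow, h2]; rfl
    have h4 := Nat.le_of_dvd (by norm_num) (orderOf_dvd_of_pow_eq_one h3)
    rw [hx] at h4
    omega
  have hod : Cfsg.Agent.H262.El.Od (Fintype.card F) (Fintype.card (Fin 2 ⊕ Fin 2)) r := by
    rw [← Nat.card_eq_fintype_card (α := F)]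
    exact H901.SaxSp.PP.od hr (by norm_num)
  have hirr := Cfsg.Agent.H262.El.irr_of_od hod hg2 hg1
  have hcoe : ((g ^ 2 : GL (Fin 2 ⊕ Fin 2) F) : Matrix (Fin 2 ⊕ Fin 2) (Fin 2 ⊕ Fin 2) F) =
      (g : Matrix (Fin 2 ⊕ Fin 2) (Fin 2 ⊕ Fin 2) F) ^ 2 := Units.val_pow_eq_pow_val _ _
  rw [hcoe] at hirr
  have hKK : K = K' := fieldSub_unique hirr (by norm_num) hK hK' hc1 hc2
  apply pre_injective
  rw [hKM, hKM', hKK]

/-- the `r`-subgroups of `PSp_4(q)` are cyclic -/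
theorem cyc_psp {r : ℕ} (hr : PP (Nat.card F) 4 r) (P : Subgroup (PSp 2 F)) (hP : IsPGroup r P) : IsCyclic P := by
  have hrf : Fact r.Prime := ⟨hr.prime⟩
  have h5 := hr.lt (by norm_num)
  have hq : 1 ≤ Fintype.card F := Fintype.card_pos
  obtain ⟨S, hS⟩ := hP.exists_le_sylow
  have hiff : ∀ j, r ∣ Fintype.card F ^ j - 1 ↔ 4 ∣ j := by
    intro j
    rw [← Nat.card_eq_fintype_card]
    exact hr.dvd_iff (by rwa [Nat.card_eq_fintype_card]) j
  have h1 : IsCyclic S := H124.LinCyc.isCyclic_sylow_of_gl (ι := Fin 2 ⊕ Fin 2) (F := F) (e := 4) (by omega)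
    (by norm_num) hiff (by simp) (spToGL 2 F) spToGL_injective
    (QuotientGroup.mk' (Subgroup.center (Matrix.symplecticGroup (Fin 2) F))) (QuotientGroup.mk'_surjective _) S
  exact isCyclic_of_injective (Subgroup.inclusion hS) (Subgroup.inclusion_injective hS)

/-- **the family** -/
theorem isFam_quad {d r : ℕ} (hr : PP (Nat.card F) 4 r) (hrT : r ∣ Nat.card (PSp 2 F))
    (exi : ∀ K : Subgroup (PSp 2 F), K ≠ ⊤ → Kill (PSp 2 F) d K ∨ ∃ M ∈ Quad F r, K ≤ M) :
    IsFam (PSp 2 F) d (Quad F r) :=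
  IsFam.of_prime hr.prime hrT (cyc_psp hr) (Quad F r) (fun _ h => h.1) (fun _ h t => quad_conj h t) (fun _ h => h.2.1)
    (fun _ hx _ hM _ hM' h h' => quad_uni hr hx hM hM' h h') exi

end Cfsg.Agent.H159.PF
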